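/-
An automorphism of order `p` of a doubly transitive group of prime degree `p` that centralises a
`p`-cycle maps point stabilisers to point stabilisers (a difference set argument).
-/
import Mathlib
import Cfsg.Agent.H24.PrimeDegree3
import Cfsg.Agent.H26.HalfTrans

set_option autoImplicit false

namespace Cfsg.Agent.H12

open MulAction Matrix

theorem zmodChar_lin_indep {p : ℕ} [hp : Fact p.Prime] {ζ : ℂ} (hζ : IsPrimitiveRoot ζ p)
    (a : ZMod p → ℤ) (h : ∑ i, (a i : ℂ) * AddChar.zmodChar p hζ.pow_eq_one i = 0) (i j : ZMod p) :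
    a i = a j := by
  obtain ⟨n, rfl⟩ : ∃ n, p = n + 1 := ⟨p - 1, by have := hp.out.pos; omega⟩
  exact (hζ.sum_eq_zero_iff_forall_eq_int hp.out a).1 h i j

theorem zmodChar_sum {p : ℕ} [hp : Fact p.Prime] {ζ : ℂ} (hζ : IsPrimitiveRoot ζ p) :
    ∑ i, AddChar.zmodChar p hζ.pow_eq_one i = 0 := by
  obtain ⟨n, rfl⟩ : ∃ n, p = n + 1 := ⟨p - 1, by have := hp.out.pos; omega⟩
  have := (hζ.sum_eq_zero_iff_forall_eq_int hp.out (fun _ => 1)).2 fun _ _ => rfl
  simp only [Int.cast_one, one_mul] at this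
  exact this

variable {S α : Type*} [Group S] [MulAction S α]

/-- A matrix invariant under a doubly transitive group is scalar on functions of sum zero. -/
theorem inv_eval [Fintype α] [DecidableEq α]
    (two : ∀ {a b c d : α}, a ≠ b → c ≠ d → ∃ g : S, g • a = c ∧ g • b = d)
    (M : Matrix α α ℤ) (hM : ∀ (s : S) u v, M (s • u) (s • v) = M u v) (b : α) :
    ∃ c : ℤ, ∀ f : α → ℂ, ∑ v, f v = 0 → ∑ v, (M b v : ℂ) * f v = c * f b := by
  by_cases h : ∃ v, v ≠ b
  · obtain ⟨v₀, hv₀⟩ := h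
    refine ⟨M b b - M b v₀, fun f hf => ?_⟩
    have h1 : ∀ v, (M b v : ℂ) * f v =
        M b v₀ * f v + if v = b then ((M b b : ℂ) - M b v₀) * f b else 0 := by
      intro v
      split_ifs with e
      · subst e; ring
      · obtain ⟨g, h1, h2⟩ := two hv₀.symm (Ne.symm e)
        have := hM g b v₀
        rw [h1, h2] at this
        rw [this, add_zero]
    simp only [h1, Finset.sum_add_distrib, ← Finset.mul_sum, hf, Finset.sum_ite_eq',
      Finset.mem_univ, if_true]
    push_cast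
    ring
  · push Not at h
    refine ⟨M b b, fun f _ => ?_⟩
    rw [Fintype.sum_eq_single b fun v hv => absurd (h v) hv]

/-- The difference set argument. -/
theorem aut_fix [Finite S] [Fintype α] [FaithfulSMul S α] {p : ℕ} [hp : Fact p.Prime] (hp2 : p ≠ 2)
    (hα : Fintype.card α = p)
    (two : ∀ {a b c d : α}, a ≠ b → c ≠ d → ∃ g : S, g • a = c ∧ g • b = d)
    {σ : S} (hσ : σ ^ p = 1) (hσ1 : σ ≠ 1) (φ : MulAut S) (hφ : φ σ = σ) (hφp : φ ^ p = 1) (b : α) :
    ∃ c : α, ∀ s : S, s • b = b → φ s • c = c := by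
  classical
  obtain ⟨e, eb, he⟩ := H24.exists_coord hα σ hσ b (H24.smul_ne_of_orderOf hα σ hσ hσ1 b)
  have hen : ∀ (n : ℕ) x, e (σ ^ n • x) = e x + n := fun n x => H24.coord_pow e σ he n x
  obtain ⟨ζ, hζ⟩ : ∃ ζ : ℂ, IsPrimitiveRoot ζ p := ⟨_, Complex.isPrimitiveRoot_exp p hp.out.ne_zero⟩
  set ψ := AddChar.zmodChar p hζ.pow_eq_one
  let A : Matrix α α ℤ := fun u v => if ∃ t : S, t • b = u ∧ φ t • b = v then 1 else 0
  have hA : ∀ (s : S) u v, A (s • u) (φ s • v) = A u v := by
    intro s u v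
    refine if_congr ⟨?_, ?_⟩ rfl rfl
    · rintro ⟨t, h1, h2⟩
      exact ⟨s⁻¹ * t, by rw [mul_smul, h1, inv_smul_smul],
        by rw [map_mul, mul_smul, h2, map_inv, inv_smul_smul]⟩
    · rintro ⟨t, h1, h2⟩
      exact ⟨s * t, by rw [mul_smul, h1], by rw [map_mul, mul_smul, h2]⟩
  have hAσ : ∀ (n : ℕ) u v, A (σ ^ n • u) (σ ^ n • v) = A u v := fun n u v => by
    have := hA (σ ^ n) u v
    rwa [map_pow, hφ] at this
  have hpow : ∀ (k : ℕ) (s : S) u v, (A ^ k) (s • u) ((φ ^ k) s • v) = (A ^ k) u v := by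
    intro k
    induction k with
    | zero =>
      intro s u v
      simp [Matrix.one_apply]
    | succ k ih =>
      intro s u v
      rw [pow_succ, Matrix.mul_apply, Matrix.mul_apply,
        ← Equiv.sum_comp (toPerm ((φ ^ k) s))]
      refine Finset.sum_congr rfl fun w _ => ?_
      rw [toPerm_apply, ih, pow_succ' φ, MulAut.mul_apply, hA]
  have hb : ∀ u : α, σ ^ (e u).val • b = u := fun u =>
    e.injective (by rw [hen, eb, zero_add, ZMod.natCast_zmod_val])
  -- eigenvectors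
  have eig : ∀ (M : Matrix α α ℤ), (∀ (n : ℕ) u v, M (σ ^ n • u) (σ ^ n • v) = M u v) →
      ∀ (k : ZMod p) (u : α), ∑ v, (M u v : ℂ) * ψ (k * e v) =
        (∑ v, (M b v : ℂ) * ψ (k * e v)) * ψ (k * e u) := by
    intro M hM k u
    rw [Finset.sum_mul, ← Equiv.sum_comp (toPerm (σ ^ (e u).val))]
    refine Finset.sum_congr rfl fun v _ => ?_
    have h1 := hM (e u).val b v
    rw [hb] at h1
    rw [toPerm_apply, h1, hen, ZMod.natCast_zmod_val, mul_add, AddChar.map_add_eq_mul, mul_assoc]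
  let δ : ZMod p → ℂ := fun k => ∑ v, (A b v : ℂ) * ψ (k * e v)
  have hδ : ∀ (k : ZMod p) (n : ℕ) (u : α),
      ∑ v, ((A ^ n) u v : ℂ) * ψ (k * e v) = δ k ^ n * ψ (k * e u) := by
    intro k n
    induction n with
    | zero =>
      intro u
      simp [Matrix.one_apply]
    | succ n ih =>
      intro u
      simp only [pow_succ' A, Matrix.mul_apply, Int.cast_sum, Int.cast_mul, Finset.sum_mul]
      rw [Finset.sum_comm]
      simp only [mul_assoc, ← Finset.mul_sum, ih]
      simp only [← mul_assoc, mul_comm _ (δ k ^ n)]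
      simp only [mul_assoc, ← Finset.mul_sum]
      rw [eig A hAσ, pow_succ, mul_assoc]
  have hsum : ∀ k : ZMod p, k ≠ 0 → ∑ v, ψ (k * e v) = 0 := fun k hk => by
    rw [← zmodChar_sum hζ]
    exact Equiv.sum_comp (e.trans (Equiv.mulLeft₀ k hk)) ψ
  obtain ⟨c, hc⟩ := inv_eval two (A ^ p) (fun s u v => by
    have := hpow p s u v
    rwa [hφp] at this) b
  have hc' : ∀ k : ZMod p, k ≠ 0 → δ k ^ p = c := fun k hk => by
    have := hc _ (hsum k hk)
    rw [hδ] at this
    simpa [eb] using this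
  obtain ⟨n, hn⟩ := inv_eval two (A * Aᵀ) (fun s u v => by
    rw [Matrix.mul_apply, Matrix.mul_apply, ← Equiv.sum_comp (toPerm (φ s))]
    refine Finset.sum_congr rfl fun w _ => ?_
    simp only [toPerm_apply, transpose_apply, hA]) b
  have hn' : δ 1 * δ (-1) = n := by
    have h1 := hn _ (hsum 1 one_ne_zero)
    simp only [Matrix.mul_apply, Int.cast_sum, Int.cast_mul, Finset.sum_mul] at h1
    rw [Finset.sum_comm] at h1
    simp only [mul_assoc, ← Finset.mul_sum] at h1
    have h2 : ∀ w, ∑ v, (Aᵀ w v : ℂ) * ψ (1 * e v) = δ (-1) * ψ (1 * e w) := fun w => by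
      rw [eig Aᵀ (fun n u v => hAσ n v u)]
      congr 1
      rw [← Equiv.sum_comp (e.trans ((Equiv.neg _).trans e.symm))]
      refine Finset.sum_congr rfl fun v _ => ?_
      have h3 : σ ^ (e v).val • e.symm (-e v) = b := e.injective (by
        rw [hen, eb, ZMod.natCast_zmod_val]; simp)
      have h4 := hAσ (e v).val (e.symm (-e v)) b
      rw [h3, hb] at h4
      simp [h4]
    simp only [h2, ← mul_assoc, mul_comm _ (δ (-1))] at h1
    simp only [mul_assoc, ← Finset.mul_sum] at h1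
    rw [mul_comm]
    simpa [eb, δ] using h1
  -- the coefficients are not constant
  have hnc : ¬ ∀ v, A b v = A b b := by
    intro h
    have h1 : ∀ v, ∃ t : S, t • b = b ∧ φ t • b = v := fun v => by
      have h2 : A b b = 1 := if_pos ⟨1, by simp⟩
      by_contra h3
      have h4 : A b v = 0 := if_neg h3
      rw [h v, h2] at h4
      exact one_ne_zero h4
    have : IsPretransitive S α := ⟨fun x y => ⟨σ ^ (e y - e x).val, e.injective (by
      rw [hen, ZMod.natCast_zmod_val]; ring)⟩⟩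
    apply H24.not_dvd_card_of_index hα (stabilizer S b)
      (by rw [index_stabilizer_of_transitive, Nat.card_eq_fintype_card, hα])
    have h2 := H26.card_orbit_mul_card_inf ((stabilizer S b).map φ.toMonoidHom) b
    rw [Subgroup.card_map_of_injective φ.injective] at h2
    have h3 : orbit ((stabilizer S b).map φ.toMonoidHom) b = Set.univ := by
      refine Set.eq_univ_of_forall fun v => ?_
      obtain ⟨t, h1, h2⟩ := h1 v
      exact ⟨⟨φ t, t, h1, rfl⟩, h2⟩
    rw [h3, Nat.card_univ, Nat.card_eq_fintype_card, hα] at h2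
    exact Dvd.intro _ h2
  have hli : ∀ (a : α → ℤ) (k : ZMod p), k ≠ 0 → ∑ v, (a v : ℂ) * ψ (k * e v) = 0 →
      ∀ u v, a u = a v := fun a k hk h u v => by
    let E := e.trans (Equiv.mulLeft₀ k hk)
    have := zmodChar_lin_indep hζ (fun i => a (E.symm i)) (by
      rw [← h, ← Equiv.sum_comp E]
      simp only [Equiv.symm_apply_apply]
      rfl) (E u) (E v)
    simpa using this
  have hδ0 : ∀ k : ZMod p, k ≠ 0 → δ k ≠ 0 := fun k hk h => hnc fun v => hli _ k hk h v b
  have h1 : δ 1 ≠ 0 := hδ0 1 one_ne_zero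
  have h2 : δ (-1) ≠ 0 := hδ0 (-1) (neg_ne_zero.2 one_ne_zero)
  have : NeZero p := ⟨hp.out.ne_zero⟩
  obtain ⟨i, -, hi⟩ := hζ.eq_pow_of_pow_eq_one (ξ := δ (-1) / δ 1) (by
    rw [div_pow, hc' _ (neg_ne_zero.2 one_ne_zero), ← hc' 1 one_ne_zero,
      div_self (pow_ne_zero _ h1)])
  obtain ⟨m, hm⟩ := hp.out.odd_of_ne_two hp2
  have h3 : (n : ℂ) ^ m * δ 1 = c * ψ (i * m : ℕ) := by
    rw [AddChar.zmodChar_apply', ← hc' 1 one_ne_zero, ← hn', pow_mul, hi,
      show δ 1 ^ p = δ 1 ^ (2 * m + 1) from congrArg _ hm, div_pow, mul_pow]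
    field_simp
    ring
  have hn0 : n ≠ 0 := by
    intro h
    rw [h, Int.cast_zero] at hn'
    exact mul_ne_zero h1 h2 hn'
  set v₀ := e.symm (i * m : ℕ)
  have h4 := hli (fun v => n ^ m * A b v - if v = v₀ then c else 0) 1 one_ne_zero (by
    simp only [Int.cast_sub, Int.cast_mul, Int.cast_pow, sub_mul, Finset.sum_sub_distrib,
      mul_assoc, ← Finset.mul_sum, Int.cast_ite, Int.cast_zero, ite_mul, zero_mul,
      Finset.sum_ite_eq', Finset.mem_univ, if_true]
    rw [sub_eq_zero]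
    simpa [v₀, δ] using h3)
  have h5 : ∀ u v, u ≠ v₀ → v ≠ v₀ → A b u = A b v := fun u v hu hv => by
    have := h4 u v
    simp only [if_neg hu, if_neg hv, sub_zero] at this
    exact mul_left_cancel₀ (pow_ne_zero m hn0) this
  refine ⟨v₀, fun s hs => ?_⟩
  by_contra hne
  have h6 : ∀ v, A b v = A b v₀ := fun v => by
    by_cases hv : v = v₀
    · rw [hv]
    · have := hA s b v₀
      rw [hs] at this
      rw [← this]
      exact h5 _ _ hv hne
  exact hnc fun v => by rw [h6 v, h6 b]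

end Cfsg.Agent.H12
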